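import Mathlib

set_option autoImplicit false

namespace Cfsg.Agent.H9

theorem mulSingle_mem_of_normal {S : Type*} [Group S] [IsSimpleGroup S] {ι : Type*} [DecidableEq ι]
    (N : Subgroup (ι → S)) [hN : N.Normal] (i : ι) (t : S) (ht : t ≠ 1)
    (h : Pi.mulSingle i t ∈ N) (s : S) : Pi.mulSingle i s ∈ N := by
  have hn : (N.comap (MonoidHom.mulSingle (fun _ : ι => S) i)).Normal := hN.comap _
  rcases hn.eq_bot_or_eq_top with h1 | h1
  · have : t ∈ N.comap (MonoidHom.mulSingle (fun _ : ι => S) i) := h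
    rw [h1] at this
    exact absurd this ht
  · have : s ∈ N.comap (MonoidHom.mulSingle (fun _ : ι => S) i) := h1 ▸ Subgroup.mem_top s
    exact this

theorem mulSingle_mem_of_normal_of_ne {S : Type*} [Group S] [IsSimpleGroup S]
    (hS : ¬ IsMulCommutative S) {ι : Type*} [DecidableEq ι]
    (N : Subgroup (ι → S)) [hN : N.Normal] (x : ι → S) (hx : x ∈ N) (i : ι) (hi : x i ≠ 1)
    (s : S) : Pi.mulSingle i s ∈ N := by
  have hc : Subgroup.center S = ⊥ := by
    rcases (inferInstance : (Subgroup.center S).Normal).eq_bot_or_eq_top with h | h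
    · exact h
    · exfalso
      apply hS
      refine ⟨⟨fun a b => ?_⟩⟩
      have : b ∈ Subgroup.center S := h ▸ Subgroup.mem_top b
      exact Subgroup.mem_center_iff.1 this a
  obtain ⟨t, ht⟩ : ∃ t : S, t * x i ≠ x i * t := by
    by_contra h
    push Not at h
    have : x i ∈ Subgroup.center S := Subgroup.mem_center_iff.2 h
    rw [hc] at this
    exact hi this
  apply mulSingle_mem_of_normal N i (t * x i * t⁻¹ * (x i)⁻¹)
  · intro h
    apply ht
    rw [mul_inv_eq_one, mul_inv_eq_iff_eq_mul] at h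
    exact h
  · have h1 := N.mul_mem (hN.conj_mem x hx (Pi.mulSingle i t)) (N.inv_mem hx)
    convert h1 using 1
    ext j
    by_cases hj : j = i
    · subst hj; simp
    · simp [Pi.mulSingle_eq_of_ne hj]

theorem normal_subgroup_pi_simple {S : Type*} [Group S] [IsSimpleGroup S]
    (hS : ¬ IsMulCommutative S) {ι : Type*} [Fintype ι]
    (N : Subgroup (ι → S)) [N.Normal] :
    ∃ T : Finset ι, ∀ x : ι → S, x ∈ N ↔ ∀ i, i ∉ T → x i = 1 := by
  classical
  refine ⟨Finset.univ.filter (fun i => ∃ y ∈ N, y i ≠ 1), fun x => ⟨fun hx i hi => ?_, fun hx => ?_⟩⟩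
  · by_contra h
    exact hi (Finset.mem_filter.2 ⟨Finset.mem_univ _, x, hx, h⟩)
  · apply Subgroup.pi_mem_of_mulSingle_mem
    intro i
    by_cases hi : x i = 1
    · rw [hi, Pi.mulSingle_one]; exact N.one_mem
    · have : i ∈ Finset.univ.filter (fun i => ∃ y ∈ N, y i ≠ 1) := by
        by_contra h
        exact hi (hx i h)
      obtain ⟨y, hy, hyi⟩ := (Finset.mem_filter.1 this).2
      exact mulSingle_mem_of_normal_of_ne hS N y hy i hyi _

theorem char_pi_simple {S : Type*} [Group S] [IsSimpleGroup S] {ι : Type*} [Fintype ι]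
    (H : Subgroup (ι → S)) (hH : H.Characteristic) : H = ⊥ ∨ H = ⊤ := by
  classical
  by_cases hb : H = ⊥
  · exact Or.inl hb
  right
  have hn : H.Normal := inferInstance
  have hφ : ∀ φ : (ι → S) ≃* (ι → S), ∀ x ∈ H, φ x ∈ H := fun φ x hx =>
    (Subgroup.characteristic_iff_le_comap.1 hH φ) hx
  obtain ⟨x, hx, hx1⟩ : ∃ x ∈ H, x ≠ 1 := by
    by_contra h
    push Not at h
    exact hb ((Subgroup.eq_bot_iff_forall _).2 h)
  obtain ⟨i, hi⟩ : ∃ i, x i ≠ 1 := by
    by_contra h
    push Not at h
    exact hx1 (funext h)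
  have key : ∃ j, ∀ s : S, Pi.mulSingle j s ∈ H := by
    by_cases hS : IsMulCommutative S
    · by_cases hj : ∃ j, j ≠ i
      · obtain ⟨j, hj⟩ := hj
        have hc : ∀ a b : S, a * b = b * a := fun a b => hS.1.1 a b
        let φ : (ι → S) ≃* (ι → S) :=
          { toFun := fun y => y * Pi.mulSingle j (y i)
            invFun := fun y => y * (Pi.mulSingle j (y i))⁻¹
            left_inv := fun y => by
              ext k
              simp [Pi.mulSingle_eq_of_ne hj.symm]
            right_inv := fun y => by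
              ext k
              simp [Pi.mulSingle_eq_of_ne hj.symm]
            map_mul' := fun y z => by
              ext k
              simp only [Pi.mul_apply, Pi.mulSingle_mul]
              rw [mul_assoc, mul_assoc, ← mul_assoc (z k), hc (z k), mul_assoc] }
        refine ⟨j, mulSingle_mem_of_normal H j (x i) hi ?_⟩
        have := H.mul_mem (H.inv_mem hx) (hφ φ x hx)
        simpa [φ] using this
      · push Not at hj
        refine ⟨i, mulSingle_mem_of_normal H i (x i) hi ?_⟩
        convert hx using 1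
        ext k
        rw [hj k]; simp
    · exact ⟨i, mulSingle_mem_of_normal_of_ne hS H x hx i hi⟩
  obtain ⟨j, hj⟩ := key
  rw [eq_top_iff]
  intro y _
  apply Subgroup.pi_mem_of_mulSingle_mem
  intro k
  have := hφ (MulEquiv.arrowCongr (Equiv.swap j k) (MulEquiv.refl S)) _ (hj (y k))
  convert this using 1
  ext l
  simp only [MulEquiv.arrowCongr_apply, MulEquiv.refl_apply, Equiv.symm_swap]
  by_cases hl : l = k
  · subst hl; simp
  · rw [Pi.mulSingle_eq_of_ne hl, Pi.mulSingle_eq_of_ne]
    intro h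
    apply hl
    rw [Equiv.swap_apply_eq_iff] at h
    simpa using h

theorem exists_pi_simple_of_char_simple {G : Type*} [Group G] [Finite G] [Nontrivial G]
    (hG : ∀ H : Subgroup G, H.Characteristic → H = ⊥ ∨ H = ⊤) :
    ∃ (N : Subgroup G) (n : ℕ), IsSimpleGroup N ∧ 1 ≤ n ∧ Nonempty (G ≃* (Fin n → N)) := by
  classical
  have hex : ∃ c : ℕ, ∃ N : Subgroup G, N.Normal ∧ N ≠ ⊥ ∧ Nat.card N = c :=
    ⟨_, ⊤, inferInstance, top_ne_bot, rfl⟩
  obtain ⟨N, hN, hN0, hNc⟩ := Nat.find_spec hex
  have hmin : ∀ K : Subgroup G, K.Normal → K ≠ ⊥ → Nat.card N ≤ Nat.card K := fun K h1 h2 =>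
    hNc ▸ Nat.find_min' hex ⟨K, h1, h2, rfl⟩
  have hN2 : 1 < Nat.card N := (Subgroup.one_lt_card_iff_ne_bot _).2 hN0
  let Q : ℕ → Prop := fun k => ∃ f : (Fin k → N) →* G, Function.Injective f ∧ f.range.Normal
  have hQ0 : Q 0 := ⟨1, fun a b _ => Subsingleton.elim _ _, by
    have : (1 : (Fin 0 → N) →* G).range = ⊥ := by simp
    rw [this]; infer_instance⟩
  have hQb : ∀ k, Q k → k ≤ Nat.card G := by
    rintro k ⟨f, hf, -⟩
    have := Nat.card_le_card_of_injective f hf
    rw [Nat.card_fun, Nat.card_eq_fintype_card (α := Fin k), Fintype.card_fin] at this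
    exact (Nat.lt_pow_self hN2).le.trans this
  set k := Nat.findGreatest Q (Nat.card G) with hk
  obtain ⟨f, hf, hfn⟩ : Q k := Nat.findGreatest_spec (Nat.zero_le _) hQ0
  have hmax : ¬ Q (k + 1) := fun h =>
    Nat.findGreatest_is_greatest (Nat.lt_succ_self k) (hQb _ h) h
  have hle : ∀ φ : G ≃* G, N.map φ.toMonoidHom ≤ f.range := by
    intro φ
    by_contra hnle
    have hφn : (N.map φ.toMonoidHom).Normal := hN.map _ φ.surjective
    have hcard : Nat.card (N.map φ.toMonoidHom) = Nat.card N :=
      Subgroup.card_map_of_injective φ.injective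
    have hdisj : Disjoint (N.map φ.toMonoidHom) f.range := by
      rw [disjoint_iff]
      by_contra hne
      have h1 := hmin _ (Subgroup.normal_inf_normal _ _) hne
      have h2 := Subgroup.eq_of_le_of_card_ge (inf_le_left : N.map φ.toMonoidHom ⊓ f.range ≤ _)
        (hcard ▸ h1)
      exact hnle (inf_eq_left.1 h2)
    have hcomm := Subgroup.commute_of_normal_of_disjoint _ _ hφn hfn hdisj
    let g : N →* G := φ.toMonoidHom.comp N.subtype
    have hg : g.range = N.map φ.toMonoidHom := by
      rw [MonoidHom.range_comp, Subgroup.range_subtype]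
    have hgi : Function.Injective g := φ.injective.comp Subtype.val_injective
    have hc : ∀ (a : N) (b : Fin k → N), Commute (g a) (f b) := fun a b =>
      hcomm _ _ (hg ▸ ⟨a, rfl⟩) ⟨b, rfl⟩
    let e : (Fin (k + 1) → N) ≃* N × (Fin k → N) :=
      { (Fin.consEquiv (fun _ => N)).symm with map_mul' := fun _ _ => rfl }
    apply hmax
    refine ⟨(g.noncommCoprod f hc).comp e.toMonoidHom, ?_, ?_⟩
    · exact ((MonoidHom.noncommCoprod_injective _ _ hc).2 ⟨hgi, hf, hg ▸ hdisj⟩).comp e.injective
    · rw [MonoidHom.range_comp, MonoidHom.range_eq_top.2 e.surjective, ← MonoidHom.range_eq_map,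
        MonoidHom.noncommCoprod_range, hg]
      infer_instance
  have hchar : (⨆ φ : G ≃* G, N.map φ.toMonoidHom).Characteristic := by
    rw [Subgroup.characteristic_iff_map_le]
    intro ψ
    rw [Subgroup.map_iSup, iSup_le_iff]
    intro φ
    rw [Subgroup.map_map]
    exact le_iSup (fun φ : G ≃* G => N.map φ.toMonoidHom) (φ.trans ψ)
  have htop : f.range = ⊤ := by
    rcases hG _ hchar with h | h
    · exfalso
      apply hN0
      have := le_iSup (fun φ : G ≃* G => N.map φ.toMonoidHom) (MulEquiv.refl G)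
      rw [h] at this
      simpa using this
    · rw [eq_top_iff, ← h]
      exact iSup_le hle
  have hsurj : Function.Surjective f := MonoidHom.range_eq_top.1 htop
  have hk1 : 1 ≤ k := by
    by_contra h
    have h0 : k = 0 := by omega
    have : Subsingleton (Fin k → N) := by rw [h0]; infer_instance
    exact not_subsingleton G hsurj.subsingleton
  refine ⟨N, k, ?_, hk1, ⟨(MulEquiv.ofBijective f ⟨hf, hsurj⟩).symm⟩⟩
  have : Nontrivial N := (Subgroup.nontrivial_iff_ne_bot _).2 hN0
  refine ⟨fun K hK => ?_⟩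
  by_cases hK0 : K = ⊥
  · exact Or.inl hK0
  right
  let i : Fin k := ⟨0, hk1⟩
  let s : N →* (Fin k → N) := MonoidHom.mulSingle (fun _ => N) i
  have hs : Function.Injective s := Pi.mulSingle_injective (M := fun _ : Fin k => N) i
  have hn1 : (K.map s).Normal := by
    refine ⟨?_⟩
    rintro _ ⟨a, ha, rfl⟩ y
    refine ⟨y i * a * (y i)⁻¹, hK.conj_mem a ha _, ?_⟩
    ext1 j
    by_cases hj : j = i
    · subst hj; simp [s]
    · simp [s, Pi.mulSingle_eq_of_ne hj]
  have hn2 : ((K.map s).map f).Normal := hn1.map _ hsurj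
  have h1 := hmin _ hn2 (by
    rw [Ne, Subgroup.map_eq_bot_iff_of_injective _ hf, Subgroup.map_eq_bot_iff_of_injective _ hs]
    exact hK0)
  rw [Subgroup.card_map_of_injective hf, Subgroup.card_map_of_injective hs] at h1
  exact Subgroup.eq_top_of_le_card _ h1

end Cfsg.Agent.H9
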